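import Mathlib

set_option autoImplicit false

namespace Cfsg.Agent.Helper4

/-- A concrete, computable field with four elements: `z = 0`, `o = 1`, `w = ω`, `v = ω + 1`
(`ω² = ω + 1`). All its arithmetic is decidable by evaluation. -/
inductive F4 : Type
  | z | o | w | v
  deriving DecidableEq

instance instFintypeF4 : Fintype F4 :=
  ⟨{F4.z, F4.o, F4.w, F4.v}, by intro x; cases x <;> decide⟩

namespace F4

/-- addition table -/
def add : F4 → F4 → F4
  | z, z => z | z, o => o | z, w => w | z, v => v
  | o, z => o | o, o => z | o, w => v | o, v => w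
  | w, z => w | w, o => v | w, w => z | w, v => o
  | v, z => v | v, o => w | v, w => o | v, v => z

/-- multiplication table -/
def mul : F4 → F4 → F4
  | z, z => z | z, o => z | z, w => z | z, v => z
  | o, z => z | o, o => o | o, w => w | o, v => v
  | w, z => z | w, o => w | w, w => v | w, v => o
  | v, z => z | v, o => v | v, w => o | v, v => w

/-- inverse table -/
def inv : F4 → F4
  | z => z | o => o | w => v | v => w

end F4

instance instZeroF4 : Zero F4 := ⟨F4.z⟩
instance instOneF4 : One F4 := ⟨F4.o⟩
instance instAddF4 : Add F4 := ⟨F4.add⟩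
instance instMulF4 : Mul F4 := ⟨F4.mul⟩
instance instNegF4 : Neg F4 := ⟨id⟩
instance instInvF4 : Inv F4 := ⟨F4.inv⟩

instance instAddCommGroupF4 : AddCommGroup F4 where
  add := (· + ·)
  add_assoc := by decide
  zero := 0
  zero_add := by decide
  add_zero := by decide
  nsmul := nsmulRec
  neg := Neg.neg
  zsmul := zsmulRec
  neg_add_cancel := by decide
  add_comm := by decide

instance instCommRingF4 : CommRing F4 where
  __ := instAddCommGroupF4
  mul := (· * ·)
  left_distrib := by decide
  right_distrib := by decide
  zero_mul := by decide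
  mul_zero := by decide
  mul_assoc := by decide
  one := 1
  one_mul := by decide
  mul_one := by decide
  mul_comm := by decide

instance instFieldF4 : Field F4 where
  __ := instCommRingF4
  inv := Inv.inv
  exists_pair_ne := ⟨F4.z, F4.o, by decide⟩
  mul_inv_cancel := by decide
  inv_zero := rfl
  nnqsmul := _
  nnqsmul_def := fun _ _ => rfl
  qsmul := _
  qsmul_def := fun _ _ => rfl

theorem card_F4 : Fintype.card F4 = 4 := rfl

theorem F4_two : (2 : F4) = 0 := by decide

theorem F4_cube : ∀ x : F4, x ≠ 0 → x ^ 3 = 1 := by decide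

theorem F4_cases : ∀ x : F4, x = 0 ∨ x = 1 ∨ x = F4.w ∨ x = F4.w + 1 := by decide

theorem F4_w : F4.w ^ 2 = F4.w + 1 := by decide

/-- Every field with four elements is isomorphic to the concrete `F4`. -/
noncomputable def toF4 {F : Type*} [Field F] [Fintype F] (hF : Fintype.card F = 4) : F ≃+* F4 :=
  FiniteField.ringEquivOfCardEq (by rw [hF, card_F4])

theorem two_eq_zero_of_card {F : Type*} [Field F] [Fintype F] (hF : Fintype.card F = 4) :
    (2 : F) = 0 := by
  apply (toF4 hF).injective
  rw [map_ofNat, map_zero]
  exact F4_two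

theorem cube_eq_one_of_card {F : Type*} [Field F] [Fintype F] (hF : Fintype.card F = 4)
    (x : F) (hx : x ≠ 0) : x ^ 3 = 1 := by
  apply (toF4 hF).injective
  rw [map_pow, map_one]
  exact F4_cube _ (by rwa [Ne, RingEquiv.map_eq_zero_iff])

end Cfsg.Agent.Helper4
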