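import Mathlib
import Cfsg.Prelude.Def_ClassicalGeometry

set_option autoImplicit false

namespace Cfsg.Agent.Helper4

open Matrix

/-- The polar vector of a quadratic form represents the polar form. -/
theorem polarVec_dot {ι : Type} [Fintype ι] [DecidableEq ι] {F : Type*} [Field F]
    (Q : QuadraticForm F (ι → F)) (v x : ι → F) :
    Cfsg.polarVec ⇑Q v ⬝ᵥ x = QuadraticMap.polar ⇑Q v x := by
  have h := LinearMap.pi_apply_eq_sum_univ (QuadraticMap.polarBilin Q v) x
  have h2 : QuadraticMap.polarBilin Q v x = QuadraticMap.polar ⇑Q v x := rfl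
  rw [← h2, h]
  unfold Cfsg.polarVec dotProduct
  apply Finset.sum_congr rfl
  intro i _
  have h3 : (fun j => if i = j then (1 : F) else 0) = Pi.single i 1 := by
    ext j
    rw [Pi.single_apply]
    by_cases hij : i = j
    · simp [hij]
    · have : ¬ j = i := fun h => hij h.symm
      simp [hij, this]
  rw [h3, smul_eq_mul, mul_comm]
  rfl

/-- Action of a rank one perturbation of the identity given by a polar vector. -/
theorem vecMulVec_polarVec_mulVec {ι : Type} [Fintype ι] [DecidableEq ι] {F : Type*} [Field F]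
    (Q : QuadraticForm F (ι → F)) (u v x : ι → F) :
    Matrix.vecMulVec u (Cfsg.polarVec ⇑Q v) *ᵥ x = QuadraticMap.polar ⇑Q v x • u := by
  rw [Matrix.vecMulVec_mulVec, polarVec_dot]
  ext i
  simp [mul_comm]

/-- The reflection matrix acts as `x ↦ x - Q(v)⁻¹ f(v, x) v`. -/
theorem reflectionMatrix_mulVec {ι : Type} [Fintype ι] [DecidableEq ι] {F : Type*} [Field F]
    (Q : QuadraticForm F (ι → F)) (v x : ι → F) :
    Cfsg.reflectionMatrix ⇑Q v *ᵥ x = x - ((Q v)⁻¹ * QuadraticMap.polar ⇑Q v x) • v := by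
  unfold Cfsg.reflectionMatrix
  rw [Matrix.sub_mulVec, Matrix.one_mulVec, Matrix.smul_mulVec, vecMulVec_polarVec_mulVec,
    smul_smul]

/-- The reflection preserves the quadratic form. -/
theorem reflectionMatrix_isometry {ι : Type} [Fintype ι] [DecidableEq ι] {F : Type*} [Field F]
    (Q : QuadraticForm F (ι → F)) (v : ι → F) (hv : Q v ≠ 0) (x : ι → F) :
    Q (Cfsg.reflectionMatrix ⇑Q v *ᵥ x) = Q x := by
  rw [reflectionMatrix_mulVec, sub_eq_add_neg, ← neg_smul, QuadraticMap.map_add (⇑Q),
    QuadraticMap.map_smul, QuadraticMap.polar_smul_right, QuadraticMap.polar_comm (⇑Q) x v]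
  simp only [smul_eq_mul]
  field_simp
  ring

/-- The reflection sends `v` to `-v`. -/
theorem reflectionMatrix_mulVec_self {ι : Type} [Fintype ι] [DecidableEq ι] {F : Type*} [Field F]
    (Q : QuadraticForm F (ι → F)) (v : ι → F) (hv : Q v ≠ 0) :
    Cfsg.reflectionMatrix ⇑Q v *ᵥ v = -v := by
  rw [reflectionMatrix_mulVec, QuadraticMap.polar_self]
  have : (Q v)⁻¹ * (2 • Q v) = 2 := by
    rw [nsmul_eq_mul]
    field_simp
    norm_num
  rw [this, two_smul]
  abel

/-- The determinant of a reflection is `-1`. -/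
theorem reflectionMatrix_det {ι : Type} [Fintype ι] [DecidableEq ι] {F : Type*} [Field F]
    (Q : QuadraticForm F (ι → F)) (v : ι → F) (hv : Q v ≠ 0) :
    (Cfsg.reflectionMatrix ⇑Q v).det = -1 := by
  unfold Cfsg.reflectionMatrix
  rw [sub_eq_add_neg, ← neg_smul, ← Matrix.smul_vecMulVec, Matrix.vecMulVec_eq (ι := Unit),
    Matrix.det_one_add_replicateCol_mul_replicateRow, dotProduct_smul, polarVec_dot,
    QuadraticMap.polar_self]
  simp only [smul_eq_mul, nsmul_eq_mul]
  field_simp
  ring

end Cfsg.Agent.Helper4
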