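import Mathlib
import Cfsg.Agent.Helper24.CharBurnside

set_option autoImplicit false

namespace Cfsg.Agent.Helper4

/-- A simple group that is not cyclic is not solvable. -/
theorem not_solvable_of_simple {G : Type*} [Group G] [IsSimpleGroup G] (hG : ¬ IsCyclic G) :
    ¬ Group.IsSolvable G := by
  intro hs
  have hcomm := (IsSimpleGroup.comm_iff_isSolvable (G := G)).2 hs
  obtain ⟨x, hx⟩ := exists_ne (1 : G)
  have hnorm : (Subgroup.zpowers x).Normal :=
    ⟨fun n hn g => by rw [hcomm g n, mul_inv_cancel_right]; exact hn⟩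
  rcases IsSimpleGroup.eq_bot_or_eq_top_of_normal (Subgroup.zpowers x) hnorm with h | h
  · apply hx
    have := Subgroup.mem_zpowers x
    rw [h, Subgroup.mem_bot] at this
    exact this
  · exact hG (isCyclic_iff_exists_zpowers_eq_top.2 ⟨x, h⟩)

/-- Burnside: the order of a non-cyclic simple group is not of the form `p^a q^b`. -/
theorem card_ne_prime_pow_mul {G : Type*} [Group G] [Finite G] [IsSimpleGroup G]
    (hG : ¬ IsCyclic G) (p q a b : ℕ) (hp : p.Prime) (hq : q.Prime) :
    Nat.card G ≠ p ^ a * q ^ b :=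
  fun h => not_solvable_of_simple hG
    (Cfsg.Agent.Helper24.isSolvable_of_card_prime_pow_mul p q a b hp hq h)

/-- In a non-cyclic simple group the Sylow subgroups for the smallest prime are not cyclic. -/
theorem sylow_minFac_not_cyclic {G : Type*} [Group G] [Finite G] [IsSimpleGroup G]
    (hG : ¬ IsCyclic G) {p : ℕ} (hp : (Nat.card G).minFac = p) [Fact p.Prime]
    (P : Sylow p G) : ¬ IsCyclic (P : Subgroup G) := by
  intro hP
  have hc := IsCyclic.isComplement' hp hP
  obtain ⟨K, hKn, hcard⟩ : ∃ K : Subgroup G, K.Normal ∧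
      Nat.card K * Nat.card (P : Subgroup G) = Nat.card G :=
    ⟨_, inferInstance, hc.card_mul_card⟩
  have hpd : p ∣ Nat.card G := hp ▸ Nat.minFac_dvd _
  have hPne : (P : Subgroup G) ≠ ⊥ := P.ne_bot_of_dvd_card hpd
  rcases IsSimpleGroup.eq_bot_or_eq_top_of_normal K hKn with h | h
  · rw [h, Subgroup.card_bot, one_mul] at hcard
    have hPtop : (P : Subgroup G) = ⊤ := Subgroup.eq_top_of_card_eq _ hcard
    apply hG
    haveI : IsCyclic (⊤ : Subgroup G) := hPtop ▸ hP
    exact isCyclic_of_surjective (Subgroup.topEquiv : (⊤ : Subgroup G) ≃* G)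
      Subgroup.topEquiv.surjective
  · rw [h, Subgroup.card_top] at hcard
    have hpos : 0 < Nat.card G := Nat.card_pos
    have h1 : Nat.card (P : Subgroup G) = 1 :=
      Nat.eq_of_mul_eq_mul_left hpos (hcard.trans (mul_one _).symm)
    exact hPne ((Subgroup.card_eq_one).1 h1)

/-- In a non-cyclic simple group the square of the smallest prime divisor divides the order. -/
theorem sq_minFac_dvd {G : Type*} [Group G] [Finite G] [IsSimpleGroup G] (hG : ¬ IsCyclic G) :
    (Nat.card G).minFac ^ 2 ∣ Nat.card G := by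
  have hn1 : Nat.card G ≠ 1 := (Finite.one_lt_card).ne'
  obtain ⟨p, hp⟩ : ∃ p, (Nat.card G).minFac = p := ⟨_, rfl⟩
  haveI : Fact p.Prime := ⟨hp ▸ Nat.minFac_prime hn1⟩
  obtain ⟨P⟩ : Nonempty (Sylow p G) := inferInstance
  have hnc := sylow_minFac_not_cyclic hG hp P
  obtain ⟨k, hk⟩ := P.2.exists_card_eq
  rw [hp]
  have hk2 : 2 ≤ k := by
    by_contra hlt
    have h01 : k = 0 ∨ k = 1 := by omega
    rcases h01 with rfl | rfl
    · rw [pow_zero] at hk
      haveI : Subsingleton (P : Subgroup G) := (Nat.card_eq_one_iff_unique.1 hk).1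
      exact hnc inferInstance
    · rw [pow_one] at hk
      exact hnc (isCyclic_of_prime_card hk)
  exact ((pow_dvd_pow p hk2).trans hk.symm.dvd).trans (Subgroup.card_subgroup_dvd_card _)

/-- A Sylow subgroup of a simple group that is neither trivial nor the whole group is not
normal; so there is more than one. -/
theorem card_sylow_ne_one {G : Type*} [Group G] [Finite G] [IsSimpleGroup G] {p : ℕ}
    [Fact p.Prime] (P : Sylow p G) (h1 : Nat.card (P : Subgroup G) ≠ 1)
    (h2 : Nat.card (P : Subgroup G) ≠ Nat.card G) : Nat.card (Sylow p G) ≠ 1 := by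
  intro hone
  haveI : Subsingleton (Sylow p G) := (Nat.card_eq_one_iff_unique.1 hone).1
  have hn : (P : Subgroup G).Normal := P.normal_of_subsingleton
  rcases IsSimpleGroup.eq_bot_or_eq_top_of_normal _ hn with h' | h'
  · exact h1 (by rw [h', Subgroup.card_bot])
  · exact h2 (by rw [h', Subgroup.card_top])

end Cfsg.Agent.Helper4
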